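import Cfsg.Agent.ClosedSpor.Cen
import Cfsg.Agent.ClosedTwo.Alt
import Cfsg.Agent.TypeM.CoverTools
import Cfsg.Agent.H799.MTSyl
import Cfsg.Agent.H799.Glue
set_option linter.all false

/-!
# Groups of type `MT n`, `8 ≤ n < 16`: the 2-fusion system is simple (helper799)

`G` simple with one class of involutions and `C(t) = 2.A_n` (McL and Ly). The strongly closed 2-subgroups are found as
in the row `McL`, `Ly` of S1252 (helper39).
-/

set_option autoImplicit false
set_option linter.style.haveILetI false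

namespace Cfsg.Agent.H799.MTRow

open Subgroup Equiv Cfsg Cfsg.Agent.TwoFusion.ClosedFam Cfsg.Agent.ClosedTwo Cfsg.Agent.Foote
open Cfsg.Agent.TypeM.Two Cfsg.Agent.TypeM.CoverTools Cfsg.Agent.SporRec.TwoAn Cfsg.Agent.ClosedSpor
open Cfsg.Agent.H799.MTSyl

variable {G : Type*} [Group G]

/-- with one class of involutions the centralizer of an involution has odd index -/
theorem not_two_dvd [Finite G] {n : ℕ} (L : MT n G) : ¬ 2 ∣ (centralizer ({L.t} : Set G)).index := by
  haveI : Fact (Nat.Prime 2) := ⟨Nat.prime_two⟩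
  obtain ⟨S⟩ : Nonempty (Sylow 2 G) := inferInstance
  obtain ⟨b, hbS, hbb, hb1, hbc⟩ := exists_central S (ne_bot L S)
  obtain ⟨g, hg⟩ := L.one b hbb hb1
  have hS : (S : Subgroup G).map (MulAut.conj g⁻¹).toMonoidHom ≤ centralizer ({L.t} : Set G) := by
    rintro _ ⟨x, hx, rfl⟩
    rw [mem_centralizer_singleton_iff]
    have h1 : x * (g * L.t * g⁻¹) = (g * L.t * g⁻¹) * x := by
      rw [hg]
      exact hbc x hx
    show g⁻¹ * x * g⁻¹⁻¹ * L.t = L.t * (g⁻¹ * x * g⁻¹⁻¹)
    have h2 := congrArg (fun y => g⁻¹ * y * g) h1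
    simp only [mul_assoc, inv_mul_cancel, mul_one, inv_mul_cancel_left] at h2
    simp only [mul_assoc, inv_inv]
    exact h2
  intro h2
  have h3 := h2.trans (index_dvd_of_le hS)
  have h4 : ((S : Subgroup G).map (MulAut.conj g⁻¹).toMonoidHom).index = (S : Subgroup G).index :=
    index_map_equiv (S : Subgroup G) (MulAut.conj g⁻¹)
  rw [h4] at h3
  exact S.not_dvd_index h3

variable {n : ℕ}

/-- another involution of `C(t)` -/
theorem exists_other (hn : 8 ≤ n) (L : MT n G) : ∃ u : centralizer ({L.t} : Set G), u * u = 1 ∧ u ≠ 1 ∧ u ≠ L.K.z := by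
  have hf : ∀ i : ℕ, i < 8 → i < n := fun i hi => lt_of_lt_of_le hi hn
  set p : Fin 8 → Fin n := fun i => ⟨i, hf i i.2⟩ with hp
  have hne : ∀ {i j : Fin 8}, i ≠ j → p i ≠ p j := fun {i j} h h1 => h (Fin.ext (Fin.mk.inj_iff.1 h1))
  obtain ⟨g, hg⟩ := L.K.exists_lift (Cover.swap_mul_swap_mem (p 0) (p 1) (p 2) (p 3) (hne (by decide)) (hne (by decide)))
  obtain ⟨h, hh⟩ := L.K.exists_lift (Cover.swap_mul_swap_mem (p 4) (p 5) (p 6) (p 7) (hne (by decide)) (hne (by decide)))
  have hgg : g * g = L.K.z := L.K.dbl (p 0) (p 1) (p 2) (p 3) (hne (by decide)) (hne (by decide)) (hne (by decide))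
    (hne (by decide)) (hne (by decide)) (hne (by decide)) g hg
  have hhh : h * h = L.K.z := L.K.dbl (p 4) (p 5) (p 6) (p 7) (hne (by decide)) (hne (by decide)) (hne (by decide))
    (hne (by decide)) (hne (by decide)) (hne (by decide)) h hh
  have hdis : (L.K.π g).Disjoint (L.K.π h) := by
    rw [hg, hh]
    have d1 : ∀ i j k l : Fin 8, i ≠ k → i ≠ l → j ≠ k → j ≠ l → (swap (p i) (p j)).Disjoint (swap (p k) (p l)) := by
      intro i j k l h1 h2 h3 h4 x
      by_cases hx : x = p i ∨ x = p j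
      · right
        rcases hx with rfl | rfl
        · exact swap_apply_of_ne_of_ne (hne h1) (hne h2)
        · exact swap_apply_of_ne_of_ne (hne h3) (hne h4)
      · left
        exact swap_apply_of_ne_of_ne (fun h => hx (Or.inl h)) (fun h => hx (Or.inr h))
    exact (Perm.Disjoint.mul_left
      ((d1 0 1 4 5 (by decide) (by decide) (by decide) (by decide)).mul_right
        (d1 0 1 6 7 (by decide) (by decide) (by decide) (by decide)))
      ((d1 2 3 4 5 (by decide) (by decide) (by decide) (by decide)).mul_right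
        (d1 2 3 6 7 (by decide) (by decide) (by decide) (by decide))))
  have hc : g * h = h * g := L.K.commute_of_disjoint hdis
  have hπ : L.K.π (g * h) ≠ 1 := by
    intro h1
    rw [map_mul, hg, hh] at h1
    have h2 := congrArg (fun σ : Perm (Fin n) => σ (p 0)) h1
    simp only [Perm.mul_apply, Perm.one_apply] at h2
    rw [swap_apply_of_ne_of_ne (a := p 6) (b := p 7) (hne (by decide)) (hne (by decide)),
      swap_apply_of_ne_of_ne (a := p 4) (b := p 5) (hne (by decide)) (hne (by decide)),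
      swap_apply_of_ne_of_ne (a := p 2) (b := p 3) (hne (by decide)) (hne (by decide)), swap_apply_left] at h2
    exact hne (by decide) h2
  refine ⟨g * h, ?_, ?_, ?_⟩
  · calc g * h * (g * h) = g * (h * g) * h := by group
      _ = g * g * (h * h) := by rw [← hc]; group
      _ = 1 := by rw [hgg, hhh, L.K.z_mul_z]
  · intro h1
    rw [h1, map_one] at hπ
    exact hπ rfl
  · intro h1
    rw [h1, L.K.π_z] at hπ
    exact hπ rfl

/-- the groups of type `MT n`, `n ≥ 8` -/
theorem cr_mt [Finite G] [IsSimpleGroup G] (hna : ¬ ∀ a b : G, a * b = b * a) (hn : 8 ≤ n) (L : MT n G) : CR G := by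
  refine cr_of_cover (perfect_of_simple hna) (H := centralizer ({L.t} : Set G))
    (not_two_dvd L) (cr_of_closedRow Cfsg.Agent.ClosedTwo.Alt.closedRow) (proj L)
    (proj_surj L) L.K.z (proj_ker L) ?_
  obtain ⟨u, hu, hu1, huz⟩ := exists_other hn L
  have huu : (u : G) * u = 1 := congrArg Subtype.val hu
  have hu1' : (u : G) ≠ 1 := fun h => hu1 (Subtype.ext h)
  obtain ⟨k, hk⟩ := L.one u huu hu1'
  refine ⟨k, ?_, ?_, ?_⟩
  · rw [L.hz, hk]; exact u.2
  · rw [L.hz, hk]; exact hu1'
  · rw [L.hz, hk]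
    intro h
    exact huz (Subtype.ext (by rw [h, L.hz]))

theorem not_comm_of_mt (hn : 8 ≤ n) (L : MT n G) : ¬ ∀ a b : G, a * b = b * a := by
  intro h
  obtain ⟨u, hu, hu1, huz⟩ := exists_other hn L
  have huu : (u : G) * u = 1 := congrArg Subtype.val hu
  have hu1' : (u : G) ≠ 1 := fun h => hu1 (Subtype.ext h)
  obtain ⟨k, hk⟩ := L.one u huu hu1'
  apply huz
  apply Subtype.ext
  rw [L.hz, ← hk, h k L.t]
  group

/-- the strongly closed 2-subgroups of a simple group of type `MT n` -/
theorem closedRow_of_mt [Finite G] [IsSimpleGroup G] (hn : 8 ≤ n) (L : MT n G) : ClosedRow G :=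
  (cr_mt (not_comm_of_mt hn L) hn L).closedRow

/-- **The 2-fusion system of a simple group of type `MT n`, `8 ≤ n < 16`, is simple.** -/
theorem isSimple_of_mt [Finite G] [IsSimpleGroup G] (hn : 8 ≤ n) (h16 : n < 16) (L : MT n G) (S : Sylow 2 G) :
    (groupFusionSystem (S : Subgroup G)).IsSimple 2 :=
  isSimple_of_self (closedRow_of_mt hn L) S (ne_bot L S) (normalizer_le (by omega) h16 L S)

end Cfsg.Agent.H799.MTRow
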